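import Groth.Agent.Flat2F.FlatWeight
import Groth.Agent.Sga5.H849.Slice

/-!
# The degree of the fibre of a finite flat morphism of curves

`deg_eq_finrank`: for `c : A ⟶ X` finite flat between smooth proper curves over an algebraically closed field,
`x` a closed point of `X`, the divisor `∑ e_z z` (`c z = x`, `m_x O_z = m_z ^ e_z`) has degree `c.finrank x`.
-/

set_option autoImplicit false
universe u
open CategoryTheory CategoryTheory.Limits AlgebraicGeometry

namespace Groth.Agent.Sga5.H849.FibDeg

open Groth.Agent.CurvesA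
open Groth.Agent.CurvesA.CurveDeg (deg finsum_eq_deg)
open Groth.Agent.Flat2F.FlatWeight
open FixPt (stalkMapAt)

section General

variable {A X : Scheme.{u}} (c : A ⟶ X) [Flat c]

theorem injective_stalkMap (z : A) : Function.Injective (c.stalkMap z).hom := by
  algebraize [(c.stalkMap z).hom]
  have : Module.FaithfullyFlat (X.presheaf.stalk (c z)) (A.presheaf.stalk z) :=
    @Module.FaithfullyFlat.of_flat_of_isLocalHom _ _ _ _ _ _ _
      (Flat.stalkMap c z) (c.toLRSHom.prop z)
  exact ‹RingHom.FaithfullyFlat _›.injective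

/-- The generic point is not mapped to a point whose local ring is not a field. -/
theorem ne_genericPoint [IsIntegral A] (z : A) (h : ¬ IsField (X.presheaf.stalk (c z))) :
    z ≠ genericPoint A := by
  rintro rfl
  apply h
  have h1 : IsField (A.presheaf.stalk (genericPoint A)) :=
    (inferInstance : Field A.functionField).toIsField
  rw [IsLocalRing.isField_iff_maximalIdeal_eq, eq_bot_iff]
  intro r hr
  rw [Ideal.mem_bot]
  apply injective_stalkMap c (genericPoint A)
  rw [map_zero]
  have h2 : (c.stalkMap (genericPoint A)).hom r ∈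
      IsLocalRing.maximalIdeal (A.presheaf.stalk (genericPoint A)) := by
    rw [IsLocalRing.mem_maximalIdeal, mem_nonunits_iff] at hr ⊢
    exact fun h3 => hr (isUnit_of_map_unit _ _ h3)
  rwa [IsLocalRing.isField_iff_maximalIdeal_eq.1 h1, Ideal.mem_bot] at h2

end General

section Res

variable {k : Type u} [Field k] [IsAlgClosed k] {A X : Scheme.{u}}
  (a : X ⟶ Spec (CommRingCat.of k)) (b : A ⟶ Spec (CommRingCat.of k))
  [LocallyOfFiniteType a] [LocallyOfFiniteType b] (c : A ⟶ X) (hc : c ≫ a = b)

include hc in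
theorem isIso_residueFieldMap (z : A) (hz : IsClosed {z}) (hx : IsClosed {c z}) :
    IsIso (c.residueFieldMap z) := by
  have h1 : (residueFieldIsoBase a (c z) hx).inv ≫ c.residueFieldMap z =
      (residueFieldIsoBase b z hz).inv := by
    apply Spec.map_injective
    rw [Spec.map_comp, SpecMap_residueFieldIsoBase_inv, SpecMap_residueFieldIsoBase_inv,
      ← Category.assoc, Scheme.Hom.SpecMap_residueFieldMap_fromSpecResidueField, Category.assoc, hc]
  have h2 : c.residueFieldMap z = (residueFieldIsoBase a (c z) hx).hom ≫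
      (residueFieldIsoBase b z hz).inv := by
    rw [← h1, Iso.hom_inv_id_assoc]
  rw [h2]
  infer_instance

end Res

theorem degrees_eq_one {K L : Type u} [Field K] [Field L] [Algebra K L]
    (h : Function.Bijective (algebraMap K L)) :
    Field.finSepDegree K L = 1 ∧ Field.finInsepDegree K L = 1 := by
  have h1 : Module.finrank K L = 1 := by
    rw [← LinearEquiv.finrank_eq (LinearEquiv.ofBijective (Algebra.linearMap K L) h),
      Module.finrank_self]
  have h2 := Field.finSepDegree_mul_finInsepDegree K L
  rw [h1] at h2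
  exact ⟨Nat.eq_one_of_mul_eq_one_right h2, Nat.eq_one_of_mul_eq_one_left h2⟩

section Curve

variable {k : Type u} [Field k] [IsAlgClosed k] {A X : Scheme.{u}} [IsIntegral A] [IsIntegral X]
  (a : X ⟶ Spec (CommRingCat.of k)) [IsProper a] [SmoothOfRelativeDimension 1 a]
  (b : A ⟶ Spec (CommRingCat.of k)) [IsProper b] [SmoothOfRelativeDimension 1 b]
  (c : A ⟶ X) [IsFinite c] [Flat c] (hc : c ≫ a = b)

omit [IsFinite c] in
include a b hc in
/-- The contribution of a point of the fibre. -/
theorem wt_mul_eq (z : A) (hx : IsClosed {c z}) :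
    ∃ m : ℕ, (IsLocalRing.maximalIdeal (X.presheaf.stalk (c z))).map (c.stalkMap z).hom =
        IsLocalRing.maximalIdeal (A.presheaf.stalk z) ^ m ∧ z ≠ genericPoint A ∧
      wt c z * (letI := (c.residueFieldMap z).hom.toAlgebra
        (Field.finSepDegree (X.residueField (c z)) (A.residueField z) : ℤ)) = m := by
  have hx1 : c z ≠ genericPoint X := (CurveDvr.isClosed_singleton_iff (Diag.dim_eq a) _).1 hx
  have hdx := Diag.isDed a (c z) hx1
  have hne : z ≠ genericPoint A := ne_genericPoint c z (IsDiscreteValuationRing.not_isField _)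
  have hz : IsClosed {z} := (CurveDvr.isClosed_singleton_iff (Diag.dim_eq b) _).2 hne
  have hdz := Diag.isDed b z hne
  have hiso := isIso_residueFieldMap a b c hc z hz hx
  have hbij : Function.Bijective (c.residueFieldMap z).hom :=
    ConcreteCategory.bijective_of_isIso (c.residueFieldMap z)
  have hI0 : (IsLocalRing.maximalIdeal (X.presheaf.stalk (c z))).map (c.stalkMap z).hom ≠ ⊥ := by
    intro h0
    rw [Ideal.map_eq_bot_iff_le_ker, (RingHom.injective_iff_ker_eq_bot _).1
      (injective_stalkMap c z), le_bot_iff] at h0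
    exact IsDiscreteValuationRing.not_a_field _ h0
  obtain ⟨π, hπ⟩ := IsDiscreteValuationRing.exists_irreducible (A.presheaf.stalk z)
  obtain ⟨m, hm⟩ := IsDiscreteValuationRing.ideal_eq_span_pow_irreducible hI0 hπ
  have hm2 : (IsLocalRing.maximalIdeal (X.presheaf.stalk (c z))).map (c.stalkMap z).hom =
      IsLocalRing.maximalIdeal (A.presheaf.stalk z) ^ m := by
    rw [hm, hπ.maximalIdeal_eq, Ideal.span_singleton_pow]
  refine ⟨m, hm2, hne, ?_⟩
  have h1 : len (c.stalkMap z).hom = m := by
    unfold len
    rw [hm2, IsDiscreteValuationRing.length_quotient_pow_maximalIdeal, ENat.toNat_natCast]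
  have h2 : insep (c.stalkMap z).hom = 1 :=
    letI := (c.residueFieldMap z).hom.toAlgebra
    (degrees_eq_one (K := X.residueField (c z)) (L := A.residueField z) hbij).2
  have h3 : (letI := (c.residueFieldMap z).hom.toAlgebra
        Field.finSepDegree (X.residueField (c z)) (A.residueField z)) = 1 :=
    letI := (c.residueFieldMap z).hom.toAlgebra
    (degrees_eq_one (K := X.residueField (c z)) (L := A.residueField z) hbij).1
  unfold wt
  rw [h1, h2, h3, Nat.cast_one, mul_one, mul_one]

include a b hc in
/-- **The degree of the fibre.** -/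
theorem deg_eq_finrank (x : X) (hx : IsClosed {x}) (E : {z : A // z ≠ genericPoint A} →₀ ℤ)
    (h0 : ∀ z : {z : A // z ≠ genericPoint A}, c z.1 ≠ x → E z = 0)
    (h1 : ∀ (z : {z : A // z ≠ genericPoint A}) (hz : c z.1 = x) (m : ℕ),
      (IsLocalRing.maximalIdeal (X.presheaf.stalk x)).map (stalkMapAt c z.1 x hz) =
        IsLocalRing.maximalIdeal (A.presheaf.stalk z.1) ^ m → E z = m) :
    deg A E = c.finrank x := by
  rw [← fibreIntegral_wt c x, ← finsum_eq_deg, MoreMor.fibreIntegral]
  have hne : ∀ u : {u : A // c u = x}, u.1 ≠ genericPoint A := fun u =>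
    (wt_mul_eq a b c hc u.1 (by rw [u.2]; exact hx)).choose_spec.2.1
  let j : {u : A // c u = x} → {z : A // z ≠ genericPoint A} := fun u => ⟨u.1, hne u⟩
  have hj : Function.Injective j := fun u v h =>
    Subtype.ext (congrArg (fun w : {z : A // z ≠ genericPoint A} => w.1) h)
  have h2 : ∑ᶠ z, E z = ∑ᶠ u, E (j u) := by
    rw [← finsum_mem_range hj, ← finsum_mem_univ]
    apply finsum_mem_inter_support_eq'
    intro z hz
    refine ⟨fun _ => ⟨⟨z.1, ?_⟩, rfl⟩, fun _ => Set.mem_univ _⟩
    by_contra h3
    exact hz (h0 z h3)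
  rw [h2]
  apply finsum_congr
  rintro ⟨z, rfl⟩
  obtain ⟨m, hm, hz, hm2⟩ := wt_mul_eq a b c hc z hx
  rw [hm2]
  apply h1 _ rfl m
  rw [DiagIdeal.stalkMapAt_rfl]
  exact hm

end Curve

end Groth.Agent.Sga5.H849.FibDeg
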