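import Groth.Agent.Sga5.H849.FibDeg
import Groth.Agent.Sga5.H849.InR

/-!
# Inverse image of the class of a point along a finite flat morphism

* `HC_pt_eq_finrank`: `c^* pt = d pt`, `d` the degree of `c : A ⟶ X` finite flat;
* `T_res_gam_eq_finrank`: the same for `gam` in `R²`.
-/

set_option autoImplicit false
set_option linter.unusedSectionVars false
universe u
open CategoryTheory CategoryTheory.Limits CategoryTheory.Abelian AlgebraicGeometry

namespace Groth.Agent.Sga5.H849.FibDegR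

open Groth.Agent.CurvesA
open Groth.Agent.CurvesA.CurveDeg (deg)
open Groth.Agent.Etcore.EtInst Groth.Agent.Sga5.H861.Res Groth.Agent.Sga5.H861.T1
open scoped Groth.Agent.Etcore.EtInst Groth.Agent.Sga4B.ModEtInst
open Diag Slice InR

variable {k : Type u} [Field k] [IsAlgClosed k] {n : ℕ} [NeZero n] {ζ : k}
  (hζ : IsPrimitiveRoot ζ n) (hn : (n : k) ≠ 0)
  {A X : Scheme.{u}} [IsIntegral A] [IsIntegral X]
  (a : X ⟶ Spec (CommRingCat.of k)) [IsProper a] [SmoothOfRelativeDimension 1 a]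
  (b : A ⟶ Spec (CommRingCat.of k)) [IsProper b] [SmoothOfRelativeDimension 1 b]
  (c : A ⟶ X) [IsFinite c] [Flat c] (hc : c ≫ a = b) {d : ℕ} (hd : ∀ x : X, c.finrank x = d)

include a in
theorem exists_section : ∃ (x₀ : Spec (CommRingCat.of k) ⟶ X), x₀ ≫ a = 𝟙 _ ∧
    IsClosed ({x₀ default} : Set X) := by
  obtain ⟨x, hx⟩ := CurveDvr.exists_ne_genericPoint (dim_eq a)
  have hcl : IsClosed ({x} : Set X) := (CurveDvr.isClosed_singleton_iff (dim_eq a) x).2 hx
  refine ⟨pointOfClosedPoint a x hcl, pointOfClosedPoint_comp a x hcl, ?_⟩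
  rw [pointOfClosedPoint_apply]
  exact hcl

omit [IsProper b] [SmoothOfRelativeDimension 1 b] [IsAlgClosed k] [IsFinite c] in
include hc in
theorem ne_const (x₀ : Spec (CommRingCat.of k) ⟶ X) (hcl : IsClosed ({x₀ default} : Set X)) :
    c ≠ c ≫ a ≫ x₀ := by
  intro h
  have h1 : c (genericPoint A) = x₀ default := by
    have h2 : c (genericPoint A) = (c ≫ a ≫ x₀) (genericPoint A) := by rw [← h]
    rw [h2]
    change x₀ _ = x₀ _
    congr 1
    exact Subsingleton.elim (α := PrimeSpectrum k) _ _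
  have h3 : c (genericPoint A) ≠ genericPoint X := by
    rw [h1]
    exact (CurveDvr.isClosed_singleton_iff (dim_eq a) _).1 hcl
  have h4 := isDed a _ h3
  exact FibDeg.ne_genericPoint c (genericPoint A) (IsDiscreteValuationRing.not_isField _) rfl

include hc hd in
/-- `c^* pt = d pt`. -/
theorem HC_pt_eq_finrank :
    Groth.Agent.Etcore.HC.HC (ZMod n) c 2 (pt hζ hn a) = d • pt hζ hn b := by
  have := SmoothOfRelativeDimension.smooth 1 a
  obtain ⟨x₀, h₀, hcl⟩ := exists_section a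
  obtain ⟨E, hE, hE1, hE2⟩ := HC_pt hζ hn a b c hc x₀ h₀ (ne_const a b c hc x₀ hcl) _ rfl
  have h1 := FibDeg.deg_eq_finrank a b c hc _ hcl E hE1 hE2
  rw [hE, h1, hd, natCast_zsmul]

variable {Λ : Type (u + 1)} [CommRing Λ] [IsZ n Λ] (ε : ULift.{u + 1} (ZMod n) ≃+ Λ)

include hc hd in
theorem res_gam_eq_finrank : res c 2 (gam hζ hn ε a) = d • gam hζ hn ε b := by
  rw [gam, ← tr_res, HC_pt_eq_finrank hζ hn a b c hc hd, map_nsmul]
  rfl

include hc hd in
theorem T_res_gam_eq_finrank : T hζ hn ε b (res c 2 (gam hζ hn ε a)) = d := by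
  rw [res_gam_eq_finrank hζ hn a b c hc hd ε, map_nsmul, T_gam, nsmul_one]

end Groth.Agent.Sga5.H849.FibDegR
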